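import Mathlib
import Cfsg.Agent.Lib.Helper44.FW.Defs

/-!
# FW package [CNT] (S3211): strictly more square roots of `j` than of `t₀` in `C(j) ∩ C(t₀)`.
-/

set_option autoImplicit false

namespace Cfsg.Agent.Lib.Helper76.FW

open Cfsg Cfsg.Agent.Lib.Helper44.FW

universe u

theorem pkgCnt : PkgCnt.{u} := by
  intro G _ _ L₁ L₂ j n hC x₀ hx₀ hx₀2 hCY hPhi
  classical
  obtain ⟨a, b, hab⟩ := hCY
  have : Fintype G := Fintype.ofFinite G
  set y₀ := n * x₀ * n⁻¹ with hy₀def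
  set t₀ := x₀ * y₀ with ht₀def
  have hj2 : j ^ 2 = 1 := by rw [← hC.ord]; exact pow_orderOf_eq_one j
  have hj1 : j ≠ 1 := by
    intro h
    have := hC.ord
    rw [h, orderOf_one] at this
    omega
  have hjinv : j⁻¹ = j := by rw [inv_eq_iff_mul_eq_one, ← sq, hj2]
  have hYC : ∀ g ∈ L₁ ⊔ L₂, g * j = j * g := by
    intro g hg
    have := Subgroup.mem_centralizer_iff.1 (hC.le hg) j (Set.mem_singleton j)
    exact this.symm
  have hx₀Y : x₀ ∈ L₁ ⊔ L₂ := (le_sup_left : L₁ ≤ L₁ ⊔ L₂) hx₀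
  have hy₀L : y₀ ∈ L₂ := by
    have := Subgroup.mem_map_of_mem (MulAut.conj n).toMonoidHom hx₀
    rw [hC.swap] at this
    exact this
  have hy₀Y : y₀ ∈ L₁ ⊔ L₂ := (le_sup_right : L₂ ≤ L₁ ⊔ L₂) hy₀L
  have hnj : n * j = j * n := by
    have := Subgroup.mem_centralizer_iff.1 hC.hn j (Set.mem_singleton j)
    exact this.symm
  have hxy : x₀ * y₀ = y₀ * x₀ := hC.comm x₀ hx₀ y₀ hy₀L
  have hy₀2 : y₀ ^ 2 = j := by
    have e : y₀ ^ 2 = n * (x₀ ^ 2) * n⁻¹ := by rw [hy₀def, sq, sq]; group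
    rw [e, hx₀2, hnj]; group
  have hmeet : ∀ g, g ∈ L₁ → g ∈ L₂ → g ^ 2 = 1 := by
    intro g h1 h2
    have hg : g ∈ L₁ ⊓ L₂ := ⟨h1, h2⟩
    rw [hC.meet, Subgroup.mem_zpowers_iff] at hg
    obtain ⟨k, rfl⟩ := hg
    rw [← zpow_natCast, ← zpow_mul, mul_comm, zpow_mul, zpow_natCast, hj2, one_zpow]
  have hx₀ne : ¬ x₀ ∈ L₂ := fun h => hj1 (by rw [← hx₀2]; exact hmeet x₀ hx₀ h)
  have hy₀ne : ¬ y₀ ∈ L₁ := fun h => hj1 (by rw [← hy₀2]; exact hmeet y₀ h hy₀L)
  have hnY : n ∉ L₁ ⊔ L₂ := by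
    intro hn
    have hle : L₁ ⊔ L₂ ≤ Subgroup.normalizer (L₁ : Set G) := by
      refine sup_le Subgroup.le_normalizer ?_
      intro v hv
      rw [Subgroup.mem_normalizer_iff]
      intro h
      constructor
      · intro hh
        have e : v * h * v⁻¹ = h := by rw [← hC.comm h hh v hv]; group
        rw [e]; exact hh
      · intro hh
        have e : h = v⁻¹ * (v * h * v⁻¹) * v := by group
        have e' : v⁻¹ * (v * h * v⁻¹) * v = v * h * v⁻¹ := by
          rw [← hC.comm (v * h * v⁻¹) hh v⁻¹ (inv_mem hv)]; group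
        rw [e, e']; exact hh
    exact hy₀ne ((Subgroup.mem_normalizer_iff.1 (hle hn) x₀).1 hx₀)
  have cxj : Commute x₀ j := hYC x₀ hx₀Y
  have cyj : Commute y₀ j := hYC y₀ hy₀Y
  have cxt : Commute x₀ t₀ := by
    show x₀ * t₀ = t₀ * x₀
    rw [ht₀def, mul_assoc, ← hxy]
  have cyt : Commute y₀ t₀ := by
    show y₀ * t₀ = t₀ * y₀
    rw [ht₀def, ← mul_assoc, ← hxy]
  have hcardt : Nat.card {r : G // r * j = j * r ∧ r * t₀ = t₀ * r ∧ r ^ 2 = t₀}
      = (Finset.univ.filter (fun r : G => r * j = j * r ∧ r * t₀ = t₀ * r ∧ r ^ 2 = t₀)).card := by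
    rw [Nat.card_eq_fintype_card, Fintype.card_subtype]
  have hcardj : Nat.card {r : G // r * j = j * r ∧ r * t₀ = t₀ * r ∧ r ^ 2 = j}
      = (Finset.univ.filter (fun r : G => r * j = j * r ∧ r * t₀ = t₀ * r ∧ r ^ 2 = j)).card := by
    rw [Nat.card_eq_fintype_card, Fintype.card_subtype]
  rw [hcardt, hcardj]
  set St := Finset.univ.filter (fun r : G => r * j = j * r ∧ r * t₀ = t₀ * r ∧ r ^ 2 = t₀)
    with hSt
  set Sj := Finset.univ.filter (fun r : G => r * j = j * r ∧ r * t₀ = t₀ * r ∧ r ^ 2 = j)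
    with hSj
  have h1 : (St.filter (fun r => r ∈ L₁ ⊔ L₂)).card
      + (St.filter (fun r => ¬ r ∈ L₁ ⊔ L₂)).card = St.card :=
    Finset.card_filter_add_card_filter_not _
  have h2 : (Sj.filter (fun r => r ∈ L₁ ⊔ L₂)).card
      + (Sj.filter (fun r => ¬ r ∈ L₁ ⊔ L₂)).card = Sj.card :=
    Finset.card_filter_add_card_filter_not _
  have h3 : (St.filter (fun r => r ∈ L₁ ⊔ L₂)).card ≤ 4 := by
    have hsub : St.filter (fun r => r ∈ L₁ ⊔ L₂) ⊆ {a, a * j, b, b * j} := by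
      intro r hr
      rw [Finset.mem_filter, hSt, Finset.mem_filter] at hr
      obtain ⟨⟨_, _, _, hr2⟩, hrY⟩ := hr
      have := hab r hrY hr2
      simp only [Finset.mem_insert, Finset.mem_singleton]
      exact this
    exact (Finset.card_le_card hsub).trans Finset.card_le_four
  have h4 : 4 ≤ (Sj.filter (fun r => r ∈ L₁ ⊔ L₂)).card := by
    have d1 : x₀ ≠ x₀⁻¹ := by
      intro h
      apply hj1
      rw [← hx₀2, sq]
      nth_rewrite 2 [h]
      exact mul_inv_cancel x₀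
    have d2 : x₀ ≠ y₀ := fun h => hx₀ne (h ▸ hy₀L)
    have d3 : x₀ ≠ y₀⁻¹ := fun h => hx₀ne (h ▸ inv_mem hy₀L)
    have d4 : x₀⁻¹ ≠ y₀ := fun h => hx₀ne (by
      have : x₀⁻¹ ∈ L₂ := h ▸ hy₀L
      exact (inv_mem_iff (H := L₂)).1 this)
    have d5 : x₀⁻¹ ≠ y₀⁻¹ := fun h => d2 (inv_injective h)
    have d6 : y₀ ≠ y₀⁻¹ := by
      intro h
      apply hj1
      rw [← hy₀2, sq]
      nth_rewrite 2 [h]
      exact mul_inv_cancel y₀
    have m1 : x₀ ∉ ({x₀⁻¹, y₀, y₀⁻¹} : Finset G) := by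
      simp only [Finset.mem_insert, Finset.mem_singleton, not_or]
      exact ⟨d1, d2, d3⟩
    have m2 : x₀⁻¹ ∉ ({y₀, y₀⁻¹} : Finset G) := by
      simp only [Finset.mem_insert, Finset.mem_singleton, not_or]
      exact ⟨d4, d5⟩
    have m3 : y₀ ∉ ({y₀⁻¹} : Finset G) := by
      simp only [Finset.mem_singleton]
      exact d6
    have hc4 : ({x₀, x₀⁻¹, y₀, y₀⁻¹} : Finset G).card = 4 := by
      rw [Finset.card_insert_of_notMem m1, Finset.card_insert_of_notMem m2,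
        Finset.card_insert_of_notMem m3, Finset.card_singleton]
    have hsub : ({x₀, x₀⁻¹, y₀, y₀⁻¹} : Finset G) ⊆ Sj.filter (fun r => r ∈ L₁ ⊔ L₂) := by
      intro r hr
      simp only [Finset.mem_insert, Finset.mem_singleton] at hr
      rw [Finset.mem_filter, hSj, Finset.mem_filter]
      rcases hr with h | h | h | h
      · rw [h]
        exact ⟨⟨Finset.mem_univ _, cxj.eq, cxt.eq, hx₀2⟩, hx₀Y⟩
      · rw [h]
        exact ⟨⟨Finset.mem_univ _, cxj.inv_left.eq, cxt.inv_left.eq,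
          by rw [inv_pow, hx₀2, hjinv]⟩, inv_mem hx₀Y⟩
      · rw [h]
        exact ⟨⟨Finset.mem_univ _, cyj.eq, cyt.eq, hy₀2⟩, hy₀Y⟩
      · rw [h]
        exact ⟨⟨Finset.mem_univ _, cyj.inv_left.eq, cyt.inv_left.eq,
          by rw [inv_pow, hy₀2, hjinv]⟩, inv_mem hy₀Y⟩
    rw [← hc4]
    exact Finset.card_le_card hsub
  have h5 : (St.filter (fun r => ¬ r ∈ L₁ ⊔ L₂)).card + 1
      ≤ (Sj.filter (fun r => ¬ r ∈ L₁ ⊔ L₂)).card := by
    have e1 : n * x₀ = y₀ * n := by rw [hy₀def]; group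
    have e2 : n * y₀ = x₀ * n := by
      have e : n * y₀ = (n ^ 2) * x₀ * n⁻¹ := by rw [hy₀def, sq]; group
      rw [e, hC.hn2, ← cxj.eq, ← hC.hn2]; group
    have hnt : n * t₀ = t₀ * n := by
      rw [ht₀def, ← mul_assoc, e1, mul_assoc, e2, ← mul_assoc, ← hxy]
    have hnmem : n ∈ Sj.filter (fun r => ¬ r ∈ L₁ ⊔ L₂) := by
      rw [Finset.mem_filter, hSj, Finset.mem_filter]
      exact ⟨⟨Finset.mem_univ _, hnj, hnt, hC.hn2⟩, hnY⟩
    have himg : ∀ r ∈ St.filter (fun r => ¬ r ∈ L₁ ⊔ L₂),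
        r * x₀ ∈ Sj.filter (fun r => ¬ r ∈ L₁ ⊔ L₂) ∧ r * x₀ ≠ n := by
      intro r hr
      rw [Finset.mem_filter, hSt, Finset.mem_filter] at hr
      obtain ⟨⟨_, hrj, hrt, hr2⟩, hrY⟩ := hr
      have hrC : r ∈ Subgroup.centralizer ({j} : Set G) := by
        rw [Subgroup.mem_centralizer_iff]
        intro h hh
        rw [Set.mem_singleton_iff.1 hh]
        exact hrj.symm
      obtain ⟨hq, hne⟩ := hPhi r hrC hrY hrt hr2
      refine ⟨?_, hne⟩
      rw [Finset.mem_filter, hSj, Finset.mem_filter]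
      have c1 : Commute r j := hrj
      have c2 : Commute r t₀ := hrt
      exact ⟨⟨Finset.mem_univ _, (c1.mul_left cxj).eq, (c2.mul_left cxt).eq, hq⟩,
        fun h => hrY ((Subgroup.mul_mem_cancel_right _ hx₀Y).1 h)⟩
    have hsub : insert n ((St.filter (fun r => ¬ r ∈ L₁ ⊔ L₂)).image (fun r => r * x₀))
        ⊆ Sj.filter (fun r => ¬ r ∈ L₁ ⊔ L₂) := by
      intro r hr
      rw [Finset.mem_insert, Finset.mem_image] at hr
      rcases hr with h | ⟨r', hr', h⟩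
      · rw [h]; exact hnmem
      · rw [← h]; exact (himg r' hr').1
    have hnot : n ∉ (St.filter (fun r => ¬ r ∈ L₁ ⊔ L₂)).image (fun r => r * x₀) := by
      intro h
      rw [Finset.mem_image] at h
      obtain ⟨r', hr', h⟩ := h
      exact (himg r' hr').2 h
    have hcard := Finset.card_le_card hsub
    rw [Finset.card_insert_of_notMem hnot,
      Finset.card_image_of_injective _ (mul_left_injective x₀)] at hcard
    exact hcard
  omega

end Cfsg.Agent.Lib.Helper76.FW
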